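import Mathlib
import Cfsg.Agent.H363.DQ.BigChar
import Cfsg.Agent.H325.Same.BigFin

/-!
# The arithmetic `BigP` of the exceptional groups for all primes (helper363)

`bigP_E8_20`, `bigP_E8_24`, `bigP_F4_8`, `bigP_F4_12`, `bigP_E6_9`, `bigP_E6_12`, `bigP_TE6_12`, `bigP_TE6_18`: `p` any
prime, `c` any number with `p ^ k ∣ c → k ≤ δ f` (`δ = 6` for `E₈`, `5` for `F₄`, `3` for `E₆`, `²E₆`);
The versions `bigPz_*` need only the Zsigmondy primes `Prim p (f d)`. `pk_le`: `c = a f` is such a number if `p ^ (δ + 1) ∤ a`.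
-/

set_option autoImplicit false

namespace Cfsg.Agent.H363.DQ

open Cfsg Cfsg.Agent.OrdDiv Cfsg.Agent.H436 Cfsg.Agent.H915.GN Cfsg.Agent.H264.GN Cfsg.Agent.H264.FKS
open Cfsg.Agent.H902 Cfsg.Agent.H902.Names Cfsg.Agent.H56.Exc
open Cfsg.Agent.H325.Same (P_num_e8 P_num_f4 P_num_e6 P_num_te6 not_dvd_pw num_e8_le num_f4_le num_e6_le num_te6_le
  lt_of_le_pow num_ne pow_f spor_50 spor_47 spor_32 spor_21 spor_19 td_e6 td_te6)

universe u

/-- the numbers `a f` -/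
theorem pk_le {p a f δ : ℕ} (hp : p.Prime) (ha : ¬ p ^ (δ + 1) ∣ a) (hδ : 1 ≤ δ) (hf : 1 ≤ f) :
    ∀ k, p ^ k ∣ a * f → k ≤ δ * f := by
  intro k hk
  have ha0 : a ≠ 0 := by rintro rfl; exact ha (dvd_zero _)
  have h1 := (hp.pow_dvd_iff_le_factorization (Nat.mul_ne_zero ha0 (by omega))).1 hk
  rw [Nat.factorization_mul ha0 (by omega), Finsupp.add_apply] at h1
  have h2 : a.factorization p ≤ δ := by
    by_contra h3
    exact ha ((hp.pow_dvd_iff_le_factorization ha0).2 (by omega))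
  have h3 : f.factorization p < f := Nat.factorization_lt p (by omega)
  obtain ⟨g, rfl⟩ := Nat.exists_eq_add_of_le' hf
  have h4 : δ * (g + 1) = δ * g + δ := by ring
  have h5 : 1 * g ≤ δ * g := Nat.mul_le_mul_right _ hδ
  omega

/-- a number whose `p`-part is at most `p ^ m` -/
theorem dvd_slack {p m N c s : ℕ} (hp : p.Prime) (hc : ∀ k, p ^ k ∣ c → k ≤ m) (h : p ^ N ∣ c * s) : p ^ N ∣ p ^ m * s := by
  have hc0 : c ≠ 0 := by
    rintro rfl
    have := hc (m + 1) (dvd_zero _)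
    omega
  rcases Nat.eq_zero_or_pos s with rfl | hs
  · simp
  have h1 := (hp.pow_dvd_iff_le_factorization (Nat.mul_ne_zero hc0 hs.ne')).1 h
  rw [Nat.factorization_mul hc0 hs.ne', Finsupp.add_apply] at h1
  have h2 := hc _ (Nat.ordProj_dvd c p)
  rw [hp.pow_dvd_iff_le_factorization (Nat.mul_ne_zero (pow_ne_zero _ hp.ne_zero) hs.ne'),
    Nat.factorization_mul (pow_ne_zero _ hp.ne_zero) hs.ne', Finsupp.add_apply, hp.factorization_pow,
    Finsupp.single_eq_same]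
  omega

/-- `BigP` for fewer primes implies `BigP` for more -/
theorem bigP_mono {G : Type u} [Group G] {p N c : ℕ} {C C' : ℕ → Prop} (h : BigP G p N c C')
    (hC : ∀ r, C' r → C r) : BigP G p N c C := fun S _ _ h1 h2 h3 h4 h5 => h S h1 h2 h3 (fun r hr => h4 r (hC r hr)) h5

/-! ### the sporadic groups -/

theorem spor_38 : ∀ x ∈ spor, 2 ^ 38 ∣ x.2 → 2 ^ 106 ≤ x.2 := by decide +kernel
theorem spor3_19 : ∀ x ∈ spor, 3 ^ 19 ∣ x.2 → 3 ^ 53 ≤ x.2 := by decide +kernel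

/-! ### the frame -/

theorem bigP_frame {G : Type u} [Group G] [Finite G] {p f N δ c B D : ℕ} {h : Grp} {C : ℕ → Prop}
    (hS0 : ∀ (X : Type u) [Group X] [Finite X] [IsSimpleGroup X], IsKnownSimple' X)
    (hp : p.Prime) (hG : den h * Nat.card G = num h) (hn0 : num h ≠ 0) (hc : ∀ k, p ^ k ∣ c → k ≤ δ * f)
    (hB : ∀ t, t.Prime → t ≠ p → Art.P t (num h) ≤ (p ^ f) ^ B) (hD : num h < p ^ D)
    (hDN : D ≤ 3 * (N * f - δ * f)) (h13 : 13 ≤ N * f - δ * f) (hBN : f * B + δ * f < N * f)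
    (hspor : ∀ x ∈ spor, p ^ (N * f - δ * f) ∣ x.2 → x.2 ∣ num h → False)
    (hfin : ∀ (g : Grp) (c : ℕ), Cond g → HasChar p g → den g * c = num g → c ∣ num h → (∀ r, C r → r ∣ c) →
      p ^ (N * f) ∣ p ^ (δ * f) * c → g = h) : BigP G p (N * f) c C := by
  intro S _ _ hs hna hdvd hC hpp
  have T : OrderTable.{u} := table
  obtain ⟨g, hg⟩ := exists_named T (hS0 S) fun h => hna ⟨⟨h⟩⟩
  have hd : Nat.card S ∣ num h := hdvd.trans (hG ▸ Dvd.intro_left _ rfl)
  have hpp' : p ^ (N * f) ∣ p ^ (δ * f) * Nat.card S := dvd_slack hp hc hpp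
  have hch := hasChar_of_big hg hp hd hn0 hB hD hDN h13 hBN hpp' hspor
  have h1 := hfin g _ hg.cond hch hg.eq hd hC hpp'
  subst h1
  have h2 := hg.eq.trans hG.symm
  have h3 : 0 < den g := by
    rcases Nat.eq_zero_or_pos (den g) with h4 | h4
    · rw [h4, zero_mul] at hG
      exact absurd hG.symm hn0
    · exact h4
  exact Nat.eq_of_mul_eq_mul_left h3 h2

/-! ### the instances -/

section Inst

variable (hS0 : ∀ (X : Type u) [Group X] [Finite X] [IsSimpleGroup X], IsKnownSimple' X)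
  {p f c : ℕ} (hp : p.Prime) (hf : 1 ≤ f)

include hS0 hp hf

theorem bigP_e8 {G : Type u} [Group G] [Finite G] {d : ℕ} (hd : d = 20 ∨ d = 24)
    (hc : ∀ k, p ^ k ∣ c → k ≤ 6 * f)
    (hG : den (.e8 (p ^ f)) * Nat.card G = num (.e8 (p ^ f))) : BigP G p (120 * f) c (fun r => Prim p (f * d) r) := by
  have hq : 2 ≤ p ^ f := hp.two_le.trans (Nat.le_self_pow (by omega) p)
  refine bigP_frame hS0 (f := f) (N := 120) (δ := 6) (B := 45) (D := f * 249) hp hG
    (num_ne hG one_pos) hc (fun t ht h2 => P_num_e8 ht hq (not_dvd_pw hp ht h2))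
    (pow_f (lt_of_le_pow hq (num_e8_le _))) (by omega) (by omega) (by omega) (fun x hx h1 h2 => ?_)
    fun g c hg hch hc hd' hC hpp => ?_
  · by_cases h5 : 5 ≤ p
    · exact spor_ten hp h5 x hx ((Nat.pow_dvd_pow p (by omega)).trans h1)
    · have h3 := hp.two_le
      have h4 : p ≠ 4 := by rintro rfl; revert hp; norm_num
      obtain rfl | rfl : p = 2 ∨ p = 3 := by omega
      · exact spor_50 x hx ((Nat.pow_dvd_pow 2 (by omega)).trans h1)
      · exact spor_21 x hx ((Nat.pow_dvd_pow 3 (by omega)).trans h1)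
  · rcases hd with rfl | rfl
    · exact bigp_e8_20 hp hf hg hch hc hd' (fun s hs => hC s hs) hpp
    · exact bigp_e8_24 hp hf hg hch hc hd' (fun s hs => hC s hs) hpp

theorem bigP_f4 {G : Type u} [Group G] [Finite G] {d : ℕ} (hd : d = 8 ∨ d = 12)
    (hc : ∀ k, p ^ k ∣ c → k ≤ 5 * f)
    (hG : den (.f4 (p ^ f)) * Nat.card G = num (.f4 (p ^ f))) : BigP G p (24 * f) c (fun r => Prim p (f * d) r) := by
  have hq : 2 ≤ p ^ f := hp.two_le.trans (Nat.le_self_pow (by omega) p)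
  have hlt := pow_f (lt_of_le_pow hq (num_f4_le (p ^ f)))
  have hn0 := num_ne hG one_pos
  refine bigP_frame hS0 (f := f) (N := 24) (δ := 5) (B := 18) (D := f * 53) hp hG
    hn0 hc (fun t ht h2 => P_num_f4 ht hq (not_dvd_pw hp ht h2))
    hlt (by omega) (by omega) (by omega) (fun x hx h1 h2 => ?_)
    fun g c hg hch hc hd' hC hpp => ?_
  · have h3 := (Nat.le_of_dvd (Nat.pos_of_ne_zero hn0) h2).trans_lt hlt
    by_cases h5 : 5 ≤ p
    · exact spor_ten hp h5 x hx ((Nat.pow_dvd_pow p (by omega)).trans h1)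
    · have h6 := hp.two_le
      have h4 : p ≠ 4 := by rintro rfl; revert hp; norm_num
      obtain rfl | rfl : p = 2 ∨ p = 3 := by omega
      · rcases Nat.lt_or_ge f 3 with h4 | h4
        · obtain rfl | rfl : f = 1 ∨ f = 2 := by omega
          · have := spor_19 x hx h1
            omega
          · have := spor_38 x hx h1
            omega
        · exact spor_47 x hx ((Nat.pow_dvd_pow 2 (by omega)).trans h1)
      · rcases Nat.lt_or_ge f 2 with h4 | h4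
        · obtain rfl : f = 1 := by omega
          have := spor3_19 x hx h1
          omega
        · exact spor_21 x hx ((Nat.pow_dvd_pow 3 (by omega)).trans h1)
  · rcases hd with rfl | rfl
    · exact bigp_f4_8 hp hf hg hch hc hd' (fun s hs => hC s hs) hpp
    · exact bigp_f4_12 hp hf hg hch hc hd' (fun s hs => hC s hs) hpp

theorem bigP_e6 {G : Type u} [Group G] [Finite G] {d : ℕ} (hd : d = 9 ∨ d = 12)
    (hc : ∀ k, p ^ k ∣ c → k ≤ 3 * f)
    (hG : den (.e6 (p ^ f)) * Nat.card G = num (.e6 (p ^ f))) : BigP G p (36 * f) c (fun r => Prim p (f * d) r) := by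
  have hq : 2 ≤ p ^ f := hp.two_le.trans (Nat.le_self_pow (by omega) p)
  have hlt := pow_f (lt_of_le_pow hq (num_e6_le (p ^ f)))
  have hn0 : num (.e6 (p ^ f)) ≠ 0 := num_ne hG (Nat.gcd_pos_of_pos_left _ (by norm_num))
  refine bigP_frame hS0 (f := f) (N := 36) (δ := 3) (B := 27) (D := f * 79) hp hG
    hn0 hc (fun t ht h2 => P_num_e6 ht hq (not_dvd_pw hp ht h2))
    hlt (by omega) (by omega) (by omega) (fun x hx h1 h2 => ?_)
    fun g c hg hch hc hd' hC hpp => ?_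
  · by_cases h5 : 5 ≤ p
    · exact spor_ten hp h5 x hx ((Nat.pow_dvd_pow p (by omega)).trans h1)
    · have h6 := hp.two_le
      have h4 : p ≠ 4 := by rintro rfl; revert hp; norm_num
      obtain rfl | rfl : p = 2 ∨ p = 3 := by omega
      · rcases Nat.lt_or_ge f 2 with h4 | h4
        · obtain rfl : f = 1 := by omega
          have h5 := (td_e6 Nat.prime_two hf h2).pp (spor_32 x hx ((Nat.pow_dvd_pow 2 (by omega)).trans h1))
          omega
        · exact spor_47 x hx ((Nat.pow_dvd_pow 2 (by omega)).trans h1)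
      · exact spor_21 x hx ((Nat.pow_dvd_pow 3 (by omega)).trans h1)
  · rcases hd with rfl | rfl
    · exact bigp_e6_9 hp hf hg hch hc hd' (fun s hs => hC s hs) hpp
    · exact bigp_e6_12 hp hf hg hch hc hd' (fun s hs => hC s hs) hpp

theorem bigP_te6 {G : Type u} [Group G] [Finite G] {d : ℕ} (hd : d = 18 ∨ d = 12)
    (hc : ∀ k, p ^ k ∣ c → k ≤ 3 * f)
    (hG : den (.te6 (p ^ f)) * Nat.card G = num (.te6 (p ^ f))) : BigP G p (36 * f) c (fun r => Prim p (f * d) r) := by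
  have hq : 2 ≤ p ^ f := hp.two_le.trans (Nat.le_self_pow (by omega) p)
  have hlt := pow_f (lt_of_le_pow hq (num_te6_le hq))
  have hn0 : num (.te6 (p ^ f)) ≠ 0 := num_ne hG (Nat.gcd_pos_of_pos_left _ (by norm_num))
  refine bigP_frame hS0 (f := f) (N := 36) (δ := 3) (B := 27) (D := f * 81) hp hG
    hn0 hc (fun t ht h2 => P_num_te6 ht hq (not_dvd_pw hp ht h2))
    hlt (by omega) (by omega) (by omega) (fun x hx h1 h2 => ?_)
    fun g c hg hch hc hd' hC hpp => ?_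
  · by_cases h5 : 5 ≤ p
    · exact spor_ten hp h5 x hx ((Nat.pow_dvd_pow p (by omega)).trans h1)
    · have h6 := hp.two_le
      have h4 : p ≠ 4 := by rintro rfl; revert hp; norm_num
      obtain rfl | rfl : p = 2 ∨ p = 3 := by omega
      · rcases Nat.lt_or_ge f 2 with h4 | h4
        · obtain rfl : f = 1 := by omega
          have h5 := (td_te6 Nat.prime_two hf h2).pp (spor_32 x hx ((Nat.pow_dvd_pow 2 (by omega)).trans h1))
          omega
        · exact spor_47 x hx ((Nat.pow_dvd_pow 2 (by omega)).trans h1)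
      · exact spor_21 x hx ((Nat.pow_dvd_pow 3 (by omega)).trans h1)
  · rcases hd with rfl | rfl
    · exact bigp_te6_18 hp hf hg hch hc hd' (fun s hs => hC s hs) hpp
    · exact bigp_te6_12 hp hf hg hch hc hd' (fun s hs => hC s hs) hpp

/-! ### the groups -/

variable {F : Type u} [Field F] [Fintype F]

theorem bigPz_E8_24 (hF : Fintype.card F = p ^ f) (hc : ∀ k, p ^ k ∣ c → k ≤ 6 * f) :
    BigP ↥(Lie.chevE8.group F) p (120 * f) c (fun r => Prim p (f * 24) r) := by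
  refine bigP_e8 hS0 hp hf (Or.inr rfl) hc ?_
  change 1 * _ = _ ^ 120 * _
  rw [Cfsg.Agent.S1065.result hF]; ring


theorem bigP_E8_24 (hF : Fintype.card F = p ^ f) (hc : ∀ k, p ^ k ∣ c → k ≤ 6 * f) :
    BigP ↥(Lie.chevE8.group F) p (120 * f) c (Prim (p ^ f) 24) :=
  bigP_mono (bigPz_E8_24 hS0 hp hf hF hc) fun _ h => prim_pow hf h

theorem bigPz_E8_20 (hF : Fintype.card F = p ^ f) (hc : ∀ k, p ^ k ∣ c → k ≤ 6 * f) :
    BigP ↥(Lie.chevE8.group F) p (120 * f) c (fun r => Prim p (f * 20) r) := by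
  refine bigP_e8 hS0 hp hf (Or.inl rfl) hc ?_
  change 1 * _ = _ ^ 120 * _
  rw [Cfsg.Agent.S1065.result hF]; ring


theorem bigP_E8_20 (hF : Fintype.card F = p ^ f) (hc : ∀ k, p ^ k ∣ c → k ≤ 6 * f) :
    BigP ↥(Lie.chevE8.group F) p (120 * f) c (Prim (p ^ f) 20) :=
  bigP_mono (bigPz_E8_20 hS0 hp hf hF hc) fun _ h => prim_pow hf h

theorem bigPz_F4_12 (hF : Fintype.card F = p ^ f) (hc : ∀ k, p ^ k ∣ c → k ≤ 5 * f) :
    BigP ↥(Lie.chevF4.group F) p (24 * f) c (fun r => Prim p (f * 12) r) := by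
  refine bigP_f4 hS0 hp hf (Or.inr rfl) hc ?_
  change 1 * _ = _ ^ 24 * _
  rw [Cfsg.Agent.S1062.result hF]; ring


theorem bigP_F4_12 (hF : Fintype.card F = p ^ f) (hc : ∀ k, p ^ k ∣ c → k ≤ 5 * f) :
    BigP ↥(Lie.chevF4.group F) p (24 * f) c (Prim (p ^ f) 12) :=
  bigP_mono (bigPz_F4_12 hS0 hp hf hF hc) fun _ h => prim_pow hf h

theorem bigPz_F4_8 (hF : Fintype.card F = p ^ f) (hc : ∀ k, p ^ k ∣ c → k ≤ 5 * f) :
    BigP ↥(Lie.chevF4.group F) p (24 * f) c (fun r => Prim p (f * 8) r) := by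
  refine bigP_f4 hS0 hp hf (Or.inl rfl) hc ?_
  change 1 * _ = _ ^ 24 * _
  rw [Cfsg.Agent.S1062.result hF]; ring


theorem bigP_F4_8 (hF : Fintype.card F = p ^ f) (hc : ∀ k, p ^ k ∣ c → k ≤ 5 * f) :
    BigP ↥(Lie.chevF4.group F) p (24 * f) c (Prim (p ^ f) 8) :=
  bigP_mono (bigPz_F4_8 hS0 hp hf hF hc) fun _ h => prim_pow hf h

theorem bigPz_E6_9 (hF : Fintype.card F = p ^ f) (hc : ∀ k, p ^ k ∣ c → k ≤ 3 * f) :
    BigP ↥(Lie.chevE6.group F) p (36 * f) c (fun r => Prim p (f * 9) r) := by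
  refine bigP_e6 hS0 hp hf (Or.inl rfl) hc ?_
  change Nat.gcd 3 (p ^ f - 1) * _ = _ ^ 36 * _
  rw [Cfsg.Agent.S1063.result hF]; ring


theorem bigP_E6_9 (hF : Fintype.card F = p ^ f) (hc : ∀ k, p ^ k ∣ c → k ≤ 3 * f) :
    BigP ↥(Lie.chevE6.group F) p (36 * f) c (Prim (p ^ f) 9) :=
  bigP_mono (bigPz_E6_9 hS0 hp hf hF hc) fun _ h => prim_pow hf h

theorem bigPz_E6_12 (hF : Fintype.card F = p ^ f) (hc : ∀ k, p ^ k ∣ c → k ≤ 3 * f) :
    BigP ↥(Lie.chevE6.group F) p (36 * f) c (fun r => Prim p (f * 12) r) := by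
  refine bigP_e6 hS0 hp hf (Or.inr rfl) hc ?_
  change Nat.gcd 3 (p ^ f - 1) * _ = _ ^ 36 * _
  rw [Cfsg.Agent.S1063.result hF]; ring


theorem bigP_E6_12 (hF : Fintype.card F = p ^ f) (hc : ∀ k, p ^ k ∣ c → k ≤ 3 * f) :
    BigP ↥(Lie.chevE6.group F) p (36 * f) c (Prim (p ^ f) 12) :=
  bigP_mono (bigPz_E6_12 hS0 hp hf hF hc) fun _ h => prim_pow hf h

theorem bigPz_TE6_18 (hF : Fintype.card F = (p ^ f) ^ 2) (hc : ∀ k, p ^ k ∣ c → k ≤ 3 * f) :
    BigP ↥(Lie.twistedE6 F (p ^ f)) p (36 * f) c (fun r => Prim p (f * 18) r) := by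
  refine bigP_te6 hS0 hp hf (Or.inl rfl) hc ?_
  change Nat.gcd 3 (p ^ f + 1) * _ = _ ^ 36 * _
  rw [Cfsg.Agent.S1066.result (hp.isPrimePow.pow (by omega)) hF]; ring


theorem bigP_TE6_18 (hF : Fintype.card F = (p ^ f) ^ 2) (hc : ∀ k, p ^ k ∣ c → k ≤ 3 * f) :
    BigP ↥(Lie.twistedE6 F (p ^ f)) p (36 * f) c (Prim (p ^ f) 18) :=
  bigP_mono (bigPz_TE6_18 hS0 hp hf hF hc) fun _ h => prim_pow hf h

theorem bigPz_TE6_12 (hF : Fintype.card F = (p ^ f) ^ 2) (hc : ∀ k, p ^ k ∣ c → k ≤ 3 * f) :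
    BigP ↥(Lie.twistedE6 F (p ^ f)) p (36 * f) c (fun r => Prim p (f * 12) r) := by
  refine bigP_te6 hS0 hp hf (Or.inr rfl) hc ?_
  change Nat.gcd 3 (p ^ f + 1) * _ = _ ^ 36 * _
  rw [Cfsg.Agent.S1066.result (hp.isPrimePow.pow (by omega)) hF]; ring


theorem bigP_TE6_12 (hF : Fintype.card F = (p ^ f) ^ 2) (hc : ∀ k, p ^ k ∣ c → k ≤ 3 * f) :
    BigP ↥(Lie.twistedE6 F (p ^ f)) p (36 * f) c (Prim (p ^ f) 12) :=
  bigP_mono (bigPz_TE6_12 hS0 hp hf hF hc) fun _ h => prim_pow hf h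

end Inst

end Cfsg.Agent.H363.DQ
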