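import Mathlib
import Cfsg.Agent.H363.DQ.BigFin

/-!
# Simple groups of Lie type in characteristic `p` with almost the full `p`-part of `G₂(p^f)` (helper363)

`bigp_g2`: the group `G₂(p^f)` only (`f ≥ 4`, and `4 ∣ f` for `p = 2`); `bigP_G2`.
-/

set_option autoImplicit false

namespace Cfsg.Agent.H363.DQ

open Cfsg Cfsg.Agent.OrdDiv Cfsg.Agent.H436 Cfsg.Agent.H915.GN Cfsg.Agent.H264.GN Cfsg.Agent.H264.FKS
open Cfsg.Agent.H902 Cfsg.Agent.H902.Names Cfsg.Agent.H56.Exc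
open Cfsg.Agent.H325.Same (mul_dvd_of cop_pred not_dvd_pw lt_of_le_pow num_ne pow_f spor_50 spor_47 spor_21 td_g2
  P_drop pp_all)

universe u

/-! ### eliminations -/

theorem one_le_pow' {a : ℕ} (ha : 2 ≤ a) (k : ℕ) : 1 ≤ a ^ k := Nat.one_le_pow _ _ (by omega)

theorem pow_pos2 {a : ℕ} (ha : 2 ≤ a) {k : ℕ} (hk : 1 ≤ k) : 0 < a ^ k - 1 := by
  have : a ^ 1 ≤ a ^ k := Nat.pow_le_pow_right (by omega) hk
  rw [pow_one] at this
  omega

/-- `D (a^12 - 1) = D (a^6 - 1) (a^6 + 1)` -/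
theorem fac_two (a k : ℕ) : a ^ (2 * k) - 1 = (a ^ k - 1) * (a ^ k + 1) := by
  rw [mul_comm (a ^ k - 1), ← Nat.sq_sub_sq, ← pow_mul, mul_comm k 2, one_pow]

theorem elim_psp {a D : ℕ} (ha : 2 ≤ a) (hD : D ≤ 2)
    (h : a ^ 12 * ((a ^ 6 - 1) * (a ^ 12 - 1)) ∣ D * (a ^ 12 * ((a ^ 4 - 1) * (a ^ 12 - 1)))) (hD0 : 0 < D) : False := by
  have h1 : (a ^ 12 * (a ^ 12 - 1)) * (a ^ 6 - 1) ∣ (a ^ 12 * (a ^ 12 - 1)) * (D * (a ^ 4 - 1)) := by
    refine (dvd_of_eq ?_).trans (h.trans (dvd_of_eq ?_)) <;> ring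
  have h2 := Nat.dvd_of_mul_dvd_mul_left (Nat.mul_pos (by positivity) (pow_pos2 ha (by norm_num))) h1
  have h4 := pow_pos2 ha (k := 4) (by norm_num)
  have h3 := Nat.le_of_dvd (Nat.mul_pos hD0 h4) h2
  have h5 : D * (a ^ 4 - 1) ≤ 2 * (a ^ 4 - 1) := Nat.mul_le_mul_right _ hD
  have h6 : 4 * a ^ 4 ≤ a ^ 6 := by
    calc 4 * a ^ 4 ≤ a ^ 2 * a ^ 4 := Nat.mul_le_mul_right _ (by nlinarith)
      _ = a ^ 6 := by ring
  omega

theorem elim_oplus {a D : ℕ} (ha : 4 ≤ a) (hD : D ≤ 4) (hD0 : 0 < D)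
    (h : a ^ 12 * ((a ^ 4 - 1) * ((a ^ 2 - 1) * ((a ^ 4 - 1) * (a ^ 6 - 1)))) ∣
      D * (a ^ 12 * ((a ^ 4 - 1) * (a ^ 12 - 1)))) : False := by
  have ha2 : 2 ≤ a := by omega
  have h1 : (a ^ 12 * (a ^ 4 - 1) * (a ^ 6 - 1)) * ((a ^ 2 - 1) * (a ^ 4 - 1)) ∣
      (a ^ 12 * (a ^ 4 - 1) * (a ^ 6 - 1)) * (D * (a ^ 6 + 1)) := by
    refine (dvd_of_eq ?_).trans (h.trans (dvd_of_eq ?_))
    · ring
    · rw [show 12 = 2 * 6 by norm_num, fac_two a 6]; ring
  have h2 := Nat.dvd_of_mul_dvd_mul_left (Nat.mul_pos (Nat.mul_pos (by positivity) (pow_pos2 ha2 (by norm_num)))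
    (pow_pos2 ha2 (by norm_num))) h1
  have h3 : a ^ 2 - 1 ∣ D * (a ^ 6 + 1) := (Dvd.intro _ rfl).trans h2
  have h4 : a ^ 2 - 1 ∣ D * (a ^ 6 - 1) := Dvd.dvd.mul_left (by
    have := Nat.sub_dvd_pow_sub_pow (a ^ 2) 1 3
    rwa [one_pow, ← pow_mul] at this) _
  have h5 : a ^ 2 - 1 ∣ D * 2 := by
    have h6 := Nat.dvd_sub h3 h4
    rw [← Nat.mul_sub] at h6
    have h7 : a ^ 6 + 1 - (a ^ 6 - 1) = 2 := by
      have := one_le_pow' ha2 6
      omega
    rwa [h7] at h6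
  have h6 := Nat.le_of_dvd (by omega) h5
  have h7 : 16 ≤ a ^ 2 := by nlinarith
  omega

theorem elim_f4 {a : ℕ} (ha : 2 ≤ a)
    (h : a ^ 24 * ((a ^ 2 - 1) * (a ^ 6 - 1) * (a ^ 8 - 1) * (a ^ 12 - 1)) ∣ a ^ 24 * ((a ^ 8 - 1) * (a ^ 24 - 1))) :
    False := by
  have h1 : (a ^ 24 * (a ^ 8 - 1) * (a ^ 12 - 1)) * ((a ^ 2 - 1) * (a ^ 6 - 1)) ∣
      (a ^ 24 * (a ^ 8 - 1) * (a ^ 12 - 1)) * (a ^ 12 + 1) := by
    refine (dvd_of_eq ?_).trans (h.trans (dvd_of_eq ?_))
    · ring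
    · rw [show a ^ 24 - 1 = (a ^ 12 - 1) * (a ^ 12 + 1) from fac_two a 12]; ring
  have h2 := Nat.dvd_of_mul_dvd_mul_left (Nat.mul_pos (Nat.mul_pos (by positivity) (pow_pos2 ha (by norm_num)))
    (pow_pos2 ha (by norm_num))) h1
  have h3 : a ^ 2 - 1 ∣ a ^ 12 + 1 := (Dvd.intro _ rfl).trans h2
  have h4 : a ^ 2 - 1 ∣ a ^ 12 - 1 := by
    have := Nat.sub_dvd_pow_sub_pow (a ^ 2) 1 6
    rwa [one_pow, ← pow_mul] at this
  have h6 := Nat.dvd_sub h3 h4
  have h7 : a ^ 12 + 1 - (a ^ 12 - 1) = 2 := by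
    have := one_le_pow' ha 12
    omega
  rw [h7] at h6
  have h8 := Nat.le_of_dvd (by norm_num) h6
  have h9 : 4 ≤ a ^ 2 := by nlinarith
  omega

theorem elim_td4 {a : ℕ} (ha : 2 ≤ a)
    (h : a ^ 12 * ((a ^ 2 - 1) * (a ^ 6 - 1) * (a ^ 8 + a ^ 4 + 1)) ∣ a ^ 12 * ((a ^ 4 - 1) * (a ^ 12 - 1))) :
    False := by
  have h0 : a ^ 12 - 1 = (a ^ 4 - 1) * (a ^ 8 + a ^ 4 + 1) := by
    obtain ⟨b, hb⟩ := Nat.exists_eq_add_of_le (one_le_pow' ha 4)
    have h1 : a ^ 12 = (a ^ 4) ^ 3 := by ring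
    have h2 : a ^ 8 = (a ^ 4) ^ 2 := by ring
    rw [h1, h2, hb]
    have h3 : (1 + b) ^ 3 = 1 + b * ((1 + b) ^ 2 + (1 + b) + 1) := by ring
    rw [h3]
    simp
  have h01 : a ^ 4 - 1 = (a ^ 2 - 1) * (a ^ 2 + 1) := fac_two a 2
  have h1 : (a ^ 12 * (a ^ 8 + a ^ 4 + 1) * (a ^ 2 - 1)) * (a ^ 6 - 1) ∣
      (a ^ 12 * (a ^ 8 + a ^ 4 + 1) * (a ^ 2 - 1)) * ((a ^ 2 - 1) * (a ^ 2 + 1) ^ 2) := by
    refine (dvd_of_eq ?_).trans (h.trans (dvd_of_eq ?_))
    · ring
    · rw [h0, h01]; ring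
  have h2 := Nat.dvd_of_mul_dvd_mul_left (Nat.mul_pos (Nat.mul_pos (by positivity) (by positivity))
    (pow_pos2 ha (by norm_num))) h1
  have h3 : a ^ 6 - 1 = (a ^ 2 - 1) * (a ^ 4 + a ^ 2 + 1) := by
    obtain ⟨b, hb⟩ := Nat.exists_eq_add_of_le (one_le_pow' ha 2)
    have h1 : a ^ 6 = (a ^ 2) ^ 3 := by ring
    have h2 : a ^ 4 = (a ^ 2) ^ 2 := by ring
    rw [h1, h2, hb]
    have h3 : (1 + b) ^ 3 = 1 + b * ((1 + b) ^ 2 + (1 + b) + 1) := by ring
    rw [h3]
    simp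
  rw [h3] at h2
  have h4 := Nat.dvd_of_mul_dvd_mul_left (pow_pos2 ha (by norm_num)) h2
  have h5 : (a ^ 2 + 1) ^ 2 = (a ^ 4 + a ^ 2 + 1) + a ^ 2 := by ring
  rw [h5] at h4
  have h6 := (Nat.dvd_add_right dvd_rfl).1 h4
  have h7 := Nat.le_of_dvd (by positivity) h6
  have h8 : 0 < a ^ 4 := by positivity
  omega

theorem num_g2_pow (a k : ℕ) : num (.g2 (a ^ k)) = a ^ (k * 6) * ((a ^ (k * 2) - 1) * (a ^ (k * 6) - 1)) := by
  show (a ^ k) ^ 6 * (((a ^ k) ^ 2 - 1) * ((a ^ k) ^ 6 - 1)) = _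
  rw [← pow_mul, ← pow_mul]

theorem num_psp_two (a : ℕ) : num (.psp 2 (a ^ 3)) = a ^ 12 * ((a ^ 6 - 1) * (a ^ 12 - 1)) := by
  show (a ^ 3) ^ (2 ^ 2) * prB (a ^ 3) 2 = _
  rw [prB_eq, Finset.prod_range_succ, Finset.prod_range_succ, Finset.prod_range_zero, one_mul]
  simp only [← pow_mul]
  norm_num only

theorem num_oplus_four (a : ℕ) : num (.oplus 4 a) =
    a ^ 12 * ((a ^ 4 - 1) * ((a ^ 2 - 1) * ((a ^ 4 - 1) * (a ^ 6 - 1)))) := by
  show a ^ (4 * (4 - 1)) * ((a ^ 4 - 1) * prB a (4 - 1)) = _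
  rw [prB_eq, Finset.prod_range_succ, Finset.prod_range_succ, Finset.prod_range_succ, Finset.prod_range_zero,
    one_mul]
  norm_num only
  ring

/-! ### the group `G₂` -/

variable {p f c : ℕ} {g : Grp}

theorem num_dvd {h : Grp} (hc : den g * c = num g) (hd : c ∣ num h) : num g ∣ den g * num h := by
  rw [← hc]
  exact Nat.mul_dvd_mul_left _ hd

set_option maxHeartbeats 1600000 in
/-- **`G₂(q)`, the `p`-part.** -/
theorem bigp_g2 (hp : p.Prime) (hf : 4 ≤ f) (h24 : p = 2 → 4 ∣ f) (hg : Cond g) (hch : HasChar p g)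
    (hc : den g * c = num g) (hdvd : c ∣ num (.g2 (p ^ f))) (hpp : p ^ (6 * f) ∣ p ^ (1 * f) * c) :
    g = .g2 (p ^ f) := by
  obtain ⟨f₁, hf₁, hfl, hK, hY⟩ := kd_all hp hg hch hc
  have hTD := td_g2 hp (by omega) hdvd
  have hq : 2 ≤ p ^ f := hp.two_le.trans (Nat.le_self_pow (by omega) _)
  -- the `p`-part
  have hlo : 5 * f ≤ f₁ * ag g := by
    have h8 : p ^ (5 * f) ∣ c := by
      have h9 : p ^ (6 * f) = p ^ (1 * f) * p ^ (5 * f) := by rw [← pow_add]; congr 1; omega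
      rw [h9] at hpp
      exact Nat.dvd_of_mul_dvd_mul_left (pow_pos hp.pos _) hpp
    exact pp_all hp hf₁ hg hch hfl hc h8
  have hup : f₁ * ag g ≤ 6 * f := by
    have := hTD.pp hK.pp
    omega
  -- the exponents
  have hk : ∀ k, Yg g k → 3 ≤ f₁ * k → f₁ * k ≠ 6 → f₁ * k ∣ 6 * f := by
    intro k hk h3 h6
    obtain ⟨t, ht⟩ := exists_prim (q := p) (e := f₁ * k) hp.two_le h3 (fun h => h6 h.2)
    obtain ⟨i, hi, hd⟩ := hTD.exp ht (hK.has hk h3 ht)
    have hi' : i ∈ [2, 6] := hi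
    refine hd.trans ?_
    rw [mul_comm 6]
    refine Nat.mul_dvd_mul_left _ ?_
    simp only [List.mem_cons, List.not_mem_nil, or_false] at hi'
    rcases hi' with rfl | rfl <;> norm_num
  have h20 : 20 ≤ f₁ * ag g := by omega
  have hle : ∀ {x : ℕ}, x ∣ 6 * f → x ≤ 6 * f := fun h => Nat.le_of_dvd (by omega) h
  cases g
  case psl m q =>
    exfalso
    obtain ⟨hm, -, -⟩ := hg
    have e1 : 2 * (f₁ * (m * (m - 1) / 2)) = f₁ * (m * (m - 1)) := by
      rw [mul_left_comm, two_half]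
    have hlo' : 5 * f ≤ f₁ * (m * (m - 1) / 2) := hlo
    have hup' : f₁ * (m * (m - 1) / 2) ≤ 6 * f := hup
    have h20' : 20 ≤ f₁ * (m * (m - 1) / 2) := h20
    have hkm := hk m ⟨by omega, le_rfl⟩
    have hkm1 := hk (m - 1)
    obtain ⟨a, rfl⟩ : ∃ a, m = a + 1 := ⟨m - 1, by omega⟩
    simp only [Nat.add_sub_cancel] at *
    have h40 : 40 ≤ f₁ * ((a + 1) * a) := by omega
    rcases Nat.eq_or_lt_of_le hm with h2 | h2
    · obtain rfl : a = 1 := by omega
      have := hle (hkm (by omega) (by omega))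
      omega
    · rcases Nat.lt_or_ge (f₁ * a) 7 with h7 | h7
      · -- `L_7(p)`
        have h8 : a ≤ 6 := by nlinarith
        have h9 : a = 6 := by
          by_contra h10
          have h11 : a ≤ 5 := by omega
          have : f₁ * ((a + 1) * a) ≤ 6 * 6 := by
            calc f₁ * ((a + 1) * a) = (f₁ * a) * (a + 1) := by ring
              _ ≤ 6 * 6 := Nat.mul_le_mul (by omega) (by omega)
          omega
        subst h9
        obtain rfl : f₁ = 1 := by omega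
        have := hkm (by norm_num) (by norm_num)
        norm_num at hlo' hup' this
        obtain rfl : f = 4 := by omega
        norm_num at this
      · have h8 : 7 ≤ f₁ * (a + 1) := h7.trans (Nat.mul_le_mul_left _ (by omega))
        have h9 := hle (mul_dvd_of hf₁ (hkm (by omega) (by omega)) (hkm1 ⟨by omega, by omega⟩ (by omega) (by omega))
          (by simp))
        omega
  case psp m q =>
    exfalso
    obtain rfl : q = p ^ f₁ := hfl
    obtain ⟨hm, -, -⟩ := hg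
    have hlo' : 5 * f ≤ f₁ * m ^ 2 := hlo
    have h20' : 20 ≤ f₁ * m ^ 2 := h20
    have hkm := hk (2 * m) ⟨by omega, by omega, by omega⟩
    have hkm1 := hk (2 * (m - 1)) ⟨by omega, by omega, by omega⟩
    rcases Nat.eq_or_lt_of_le hm with h2 | h2
    · obtain rfl : m = 2 := by omega
      have h3 := hkm (by omega) (by omega)
      obtain ⟨t, ht⟩ := h3
      have h5 : t = 1 := by
        rcases Nat.lt_or_ge t 2 with h | h
        · interval_cases t <;> omega
        · exfalso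
          have : f₁ * (2 * 2) * 2 ≤ f₁ * (2 * 2) * t := Nat.mul_le_mul_left _ h
          omega
      subst h5
      obtain ⟨t, rfl⟩ : ∃ t, f = 2 * t := ⟨f / 2, by omega⟩
      obtain rfl : f₁ = 3 * t := by omega
      have ha : 2 ≤ p ^ t := hp.two_le.trans (Nat.le_self_pow (by omega) _)
      have h6 := num_dvd hc hdvd
      rw [show p ^ (3 * t) = (p ^ t) ^ 3 by rw [← pow_mul, mul_comm], show p ^ (2 * t) = (p ^ t) ^ 2 by
        rw [← pow_mul, mul_comm], num_psp_two, num_g2_pow] at h6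
      exact elim_psp ha (Nat.gcd_le_left _ (by norm_num)) h6 (Nat.gcd_pos_of_pos_left _ (by norm_num))
    · obtain ⟨a, rfl⟩ : ∃ a, m = a + 1 := ⟨m - 1, by omega⟩
      simp only [Nat.add_sub_cancel] at *
      have h7 : 7 ≤ f₁ * (2 * a) := by
        by_contra hcon
        have h8 : f₁ * a ≤ 3 := by nlinarith
        have h9 : a ≤ 3 := by nlinarith
        have : f₁ * (a + 1) ^ 2 ≤ 18 := by
          calc f₁ * (a + 1) ^ 2 = (f₁ * a) * (a + 2) + f₁ := by ring
            _ ≤ 3 * 5 + 3 := Nat.add_le_add (Nat.mul_le_mul h8 (by omega)) (by nlinarith)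
            _ ≤ 18 := by norm_num
        omega
      have h8 : 7 ≤ f₁ * (2 * (a + 1)) := h7.trans (Nat.mul_le_mul_left _ (by omega))
      have h9 := hle (mul_dvd_of (s := f₁ * 2) (a := a + 1) (b := a) (by omega)
        (by rw [mul_assoc]; exact hkm (by omega) (by omega))
        (by rw [mul_assoc]; exact hkm1 (by omega) (by omega)) (by simp))
      have h10 : 5 * (f₁ * ((a + 1) * a)) ≤ 3 * (f₁ * (a + 1) ^ 2) := by nlinarith
      have h11 : 0 < f₁ * ((a + 1) * (2 * a - 3)) := Nat.mul_pos hf₁ (Nat.mul_pos (by omega) (by omega))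
      obtain ⟨b, rfl⟩ : ∃ b, a = b + 2 := ⟨a - 2, by omega⟩
      nlinarith
  case psu m q =>
    exfalso
    obtain ⟨hm, -, -⟩ := hg
    have e1 : 2 * (f₁ * (m * (m - 1) / 2)) = f₁ * (m * (m - 1)) := by
      rw [mul_left_comm, two_half]
    have hlo' : 5 * f ≤ f₁ * (m * (m - 1) / 2) := hlo
    have hup' : f₁ * (m * (m - 1) / 2) ≤ 6 * f := hup
    have h20' : 20 ≤ f₁ * (m * (m - 1) / 2) := h20
    have h40 : 40 ≤ f₁ * (m * (m - 1)) := by omega
    rcases Nat.even_or_odd m with ⟨a, ha⟩ | ⟨a, ha⟩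
    · obtain rfl : m = 2 * a := by omega
      have h2 := hk (2 * (2 * a - 1)) ⟨by omega, Or.inr ⟨2 * a - 1, rfl, by omega, by omega⟩⟩
      have h3 := hk (2 * a) ⟨by omega, Or.inl ⟨le_rfl, by omega⟩⟩
      have h7 : 7 ≤ f₁ * (2 * a) := by
        by_contra hcon
        have h8 : a ≤ 3 := by nlinarith
        have : f₁ * (2 * a * (2 * a - 1)) ≤ 6 * 5 := by
          rw [← mul_assoc]
          exact Nat.mul_le_mul (by omega) (by omega)
        omega
      have h8 : 7 ≤ f₁ * (2 * (2 * a - 1)) := h7.trans (Nat.mul_le_mul_left _ (by omega))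
      have h9 := hle (mul_dvd_of (s := f₁ * 2) (a := a) (b := 2 * a - 1) (by omega)
        (by rw [mul_assoc]; exact h3 (by omega) (by omega))
        (by rw [mul_assoc]; exact h2 (by omega) (by omega)) (by
          have h10 : 2 * a - 1 = a + (a - 1) := by omega
          rw [h10, Nat.coprime_self_add_right]
          exact cop_pred (by omega)))
      have h10 : f₁ * 2 * (a * (2 * a - 1)) = f₁ * (2 * a * (2 * a - 1)) := by ring
      omega
    · obtain rfl : m = 2 * a + 1 := by omega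
      simp only [Nat.add_sub_cancel] at *
      have h2 := hk (2 * (2 * a + 1)) ⟨by omega, Or.inr ⟨2 * a + 1, rfl, by omega, by omega⟩⟩
      have h3 := hk (2 * a)
      rcases Nat.lt_or_ge a 2 with ha | ha
      · obtain rfl : a = 1 := by omega
        have h4 := hle (h2 (by omega) (by omega))
        norm_num at hlo'
        omega
      · rcases Nat.lt_or_ge (f₁ * (2 * a)) 7 with h7 | h7
        · have h8 : a ≤ 3 := by nlinarith
          have h9 : a = 3 := by
            by_contra h10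
            obtain rfl : a = 2 := by omega
            omega
          subst h9
          obtain rfl : f₁ = 1 := by omega
          have := h2 (by norm_num) (by norm_num)
          norm_num at hlo' hup' this
          obtain rfl : f = 4 := by omega
          norm_num at this
        · have h8 : 7 ≤ f₁ * (2 * (2 * a + 1)) := h7.trans (Nat.mul_le_mul_left _ (by omega))
          have h9 := hle (mul_dvd_of (s := f₁ * 2) (a := a) (b := 2 * a + 1) (by omega)
            (by rw [mul_assoc]; exact h3 ⟨by omega, Or.inl ⟨by omega, by omega⟩⟩ (by omega) (by omega))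
            (by rw [mul_assoc]; exact h2 (by omega) (by omega)) (by simp))
          have h10 : f₁ * 2 * (a * (2 * a + 1)) = f₁ * ((2 * a + 1) * (2 * a)) := by ring
          omega
  case oodd m q =>
    exfalso
    obtain ⟨hm, -, -⟩ := hg
    have hlo' : 5 * f ≤ f₁ * m ^ 2 := hlo
    have h20' : 20 ≤ f₁ * m ^ 2 := h20
    have hkm := hk (2 * m) ⟨by omega, by omega, by omega⟩
    have hkm1 := hk (2 * (m - 1)) ⟨by omega, by omega, by omega⟩
    obtain ⟨a, rfl⟩ : ∃ a, m = a + 1 := ⟨m - 1, by omega⟩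
    simp only [Nat.add_sub_cancel] at *
    have h7 : 7 ≤ f₁ * (2 * a) := by
      by_contra hcon
      have h8 : f₁ * a ≤ 3 := by nlinarith
      have h9 : a ≤ 3 := by nlinarith
      have : f₁ * (a + 1) ^ 2 ≤ 18 := by
        calc f₁ * (a + 1) ^ 2 = (f₁ * a) * (a + 2) + f₁ := by ring
          _ ≤ 3 * 5 + 3 := Nat.add_le_add (Nat.mul_le_mul h8 (by omega)) (by nlinarith)
          _ ≤ 18 := by norm_num
      omega
    have h8 : 7 ≤ f₁ * (2 * (a + 1)) := h7.trans (Nat.mul_le_mul_left _ (by omega))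
    have h9 := hle (mul_dvd_of (s := f₁ * 2) (a := a + 1) (b := a) (by omega)
      (by rw [mul_assoc]; exact hkm (by omega) (by omega))
      (by rw [mul_assoc]; exact hkm1 (by omega) (by omega)) (by simp))
    obtain ⟨b, rfl⟩ : ∃ b, a = b + 2 := ⟨a - 2, by omega⟩
    nlinarith
  case oplus m q =>
    exfalso
    obtain rfl : q = p ^ f₁ := hfl
    obtain ⟨hm, -⟩ := hg
    have hlo' : 5 * f ≤ f₁ * (m * (m - 1)) := hlo
    have h20' : 20 ≤ f₁ * (m * (m - 1)) := h20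
    have h2 := hk (2 * (m - 1)) ⟨by omega, by omega, by omega⟩
    have h3 := hk (2 * (m - 2)) ⟨by omega, by omega, by omega⟩
    obtain ⟨a, rfl⟩ : ∃ a, m = a + 2 := ⟨m - 2, by omega⟩
    simp only [Nat.add_sub_cancel, show a + 2 - 1 = a + 1 by omega] at *
    have key : (a = 2 ∧ f = 2 * f₁) ∨ (a = 3 ∧ f = 4 * f₁) := by
      rcases Nat.lt_or_ge (f₁ * (2 * a)) 7 with h7 | h7
      · have h8 : f₁ * a ≤ 3 := by nlinarith
        have h9 : a ≤ 3 := by nlinarith
        have h10 : f₁ = 1 := by nlinarith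
        subst h10
        interval_cases a <;> omega
      · have h8 : 7 ≤ f₁ * (2 * (a + 1)) := h7.trans (Nat.mul_le_mul_left _ (by omega))
        have h9 := mul_dvd_of (s := f₁ * 2) (a := a + 1) (b := a) (N := 6 * f) (by omega)
          (by rw [mul_assoc]; exact h2 (by omega) (by omega))
          (by rw [mul_assoc]; exact h3 (by omega) (by omega)) (by simp)
        have h9' := hle h9
        have h10 : a ≤ 3 := by
          by_contra h11
          obtain ⟨b, rfl⟩ : ∃ b, a = b + 4 := ⟨a - 4, by omega⟩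
          nlinarith
        obtain rfl | rfl : a = 2 ∨ a = 3 := by omega
        · obtain ⟨t, ht⟩ := h9
          have h5 : t = 1 := by
            rcases Nat.lt_or_ge t 2 with h | h
            · interval_cases t <;> omega
            · exfalso
              have : f₁ * 2 * ((2 + 1) * 2) * 2 ≤ f₁ * 2 * ((2 + 1) * 2) * t := Nat.mul_le_mul_left _ h
              omega
          subst h5
          left
          constructor <;> omega
        · obtain ⟨t, ht⟩ := h9
          have h5 : t = 1 := by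
            rcases Nat.lt_or_ge t 2 with h | h
            · interval_cases t <;> omega
            · exfalso
              have : f₁ * 2 * ((3 + 1) * 3) * 2 ≤ f₁ * 2 * ((3 + 1) * 3) * t := Nat.mul_le_mul_left _ h
              omega
          subst h5
          right
          constructor <;> omega
    rcases key with ⟨rfl, rfl⟩ | ⟨rfl, rfl⟩
    · -- `m = 4`
      have ha : 4 ≤ p ^ f₁ := by
        calc 4 = 2 ^ 2 := by norm_num
          _ ≤ p ^ 2 := Nat.pow_le_pow_left hp.two_le 2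
          _ ≤ p ^ f₁ := Nat.pow_le_pow_right hp.pos (by omega)
      have h6 := num_dvd hc hdvd
      rw [show p ^ (2 * f₁) = (p ^ f₁) ^ 2 by rw [← pow_mul, mul_comm], show 2 + 2 = 4 by norm_num, num_oplus_four,
        num_g2_pow] at h6
      exact elim_oplus ha (Nat.gcd_le_left _ (by norm_num)) (Nat.gcd_pos_of_pos_left _ (by norm_num)) h6
    · -- `m = 5`
      have hq0 : 2 ≤ p ^ f₁ := hp.two_le.trans (Nat.le_self_pow (by omega) _)
      obtain ⟨s, hs⟩ := exists_prim (q := p ^ f₁) (e := 5) hq0 (by norm_num) (by omega)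
      have h6 := num_dvd hc hdvd
      have h7 : s ∣ num (.oplus 5 (p ^ f₁)) := by
        show s ∣ (p ^ f₁) ^ (5 * (5 - 1)) * (((p ^ f₁) ^ 5 - 1) * prB (p ^ f₁) (5 - 1))
        exact ((hs.dvd dvd_rfl).mul_right _).mul_left _
      have h8 := h7.trans h6
      rcases hs.prime.dvd_mul.1 h8 with h | h
      · have h9 := lt_of_prim hs
        have h10 := Nat.le_of_dvd (by norm_num) (h.trans (Nat.gcd_dvd_left 4 ((p ^ f₁) ^ 5 - 1)))
        omega
      · have h10 : p ^ (4 * f₁) = (p ^ f₁) ^ 4 := by rw [← pow_mul, mul_comm]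
        rw [h10, num_g2_pow] at h
        rcases hs.prime.dvd_mul.1 h with h | h
        · exact hs.not_dvd_pow _ h
        · rcases hs.prime.dvd_mul.1 h with h | h
          · have := (hs.dvd_iff _).1 h
            omega
          · have := (hs.dvd_iff _).1 h
            omega
  case ominus m q =>
    exfalso
    obtain ⟨hm, -⟩ := hg
    have hlo' : 5 * f ≤ f₁ * (m * (m - 1)) := hlo
    have h20' : 20 ≤ f₁ * (m * (m - 1)) := h20
    have h2 := hk (2 * m) ⟨by omega, by omega, by omega⟩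
    have h3 := hk (2 * (m - 1)) ⟨by omega, by omega, by omega⟩
    obtain ⟨a, rfl⟩ : ∃ a, m = a + 1 := ⟨m - 1, by omega⟩
    simp only [Nat.add_sub_cancel] at *
    have h7 : 7 ≤ f₁ * (2 * a) := by
      by_contra hcon
      have h8 : f₁ * a ≤ 3 := by nlinarith
      have h9 : a ≤ 3 := by nlinarith
      have h10 : f₁ = 1 := by nlinarith
      subst h10
      interval_cases a <;> omega
    have h8 : 7 ≤ f₁ * (2 * (a + 1)) := h7.trans (Nat.mul_le_mul_left _ (by omega))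
    have h9 := hle (mul_dvd_of (s := f₁ * 2) (a := a + 1) (b := a) (by omega)
      (by rw [mul_assoc]; exact h2 (by omega) (by omega))
      (by rw [mul_assoc]; exact h3 (by omega) (by omega)) (by simp))
    have h10 : f₁ * 2 * ((a + 1) * a) = 2 * (f₁ * ((a + 1) * a)) := by ring
    omega
  case g2 q =>
    obtain rfl : q = p ^ f₁ := hfl
    have hlo' : 5 * f ≤ f₁ * 6 := hlo
    have h3 := hk 6 (by decide : 6 ∈ [2, 3, 6]) (by omega) (by omega)
    obtain ⟨t, ht⟩ := h3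
    have h5 : t = 1 := by
      rcases Nat.lt_or_ge t 2 with h | h
      · interval_cases t <;> omega
      · exfalso
        have : f₁ * 6 * 2 ≤ f₁ * 6 * t := Nat.mul_le_mul_left _ h
        omega
    subst h5
    obtain rfl : f₁ = f := by omega
    rfl
  case f4 q =>
    exfalso
    obtain rfl : q = p ^ f₁ := hfl
    have hlo' : 5 * f ≤ f₁ * 24 := hlo
    have h3 := hk 12 (by decide : 12 ∈ [2, 3, 4, 6, 8, 12]) (by omega) (by omega)
    have h8 := hk 8 (by decide : 8 ∈ [2, 3, 4, 6, 8, 12]) (by omega) (by omega)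
    obtain ⟨t, ht⟩ := mul_dvd_of (s := f₁ * 4) (a := 3) (b := 2) (N := 6 * f) (by omega) (by rw [mul_assoc]; exact h3)
      (by rw [mul_assoc]; exact h8) (by norm_num)
    have h5 : t = 1 := by
      rcases Nat.lt_or_ge t 2 with h | h
      · interval_cases t <;> omega
      · exfalso
        have : f₁ * 4 * (3 * 2) * 2 ≤ f₁ * 4 * (3 * 2) * t := Nat.mul_le_mul_left _ h
        omega
    subst h5
    obtain rfl : f = 4 * f₁ := by omega
    have ha : 2 ≤ p ^ f₁ := hp.two_le.trans (Nat.le_self_pow (by omega) _)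
    have h6 := num_dvd hc hdvd
    rw [show p ^ (4 * f₁) = (p ^ f₁) ^ 4 by rw [← pow_mul, mul_comm], num_g2_pow] at h6
    have h9 : (p ^ f₁) ^ 24 * (((p ^ f₁) ^ 2 - 1) * ((p ^ f₁) ^ 6 - 1) * ((p ^ f₁) ^ 8 - 1) * ((p ^ f₁) ^ 12 - 1)) ∣
        1 * ((p ^ f₁) ^ 24 * (((p ^ f₁) ^ 8 - 1) * ((p ^ f₁) ^ 24 - 1))) := h6
    rw [one_mul] at h9
    exact elim_f4 ha h9
  case e6 q =>
    exfalso
    have hlo' : 5 * f ≤ f₁ * 36 := hlo
    have h3 := hk 5 (by decide : 5 ∈ [2, 3, 4, 5, 6, 8, 9, 12]) (by omega) (by omega)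
    have h4 := hk 12 (by decide : 12 ∈ [2, 3, 4, 5, 6, 8, 9, 12]) (by omega) (by omega)
    have h5 := hle (mul_dvd_of hf₁ h3 h4 (by norm_num))
    omega
  case e7 q =>
    exfalso
    have hlo' : 5 * f ≤ f₁ * 63 := hlo
    have h3 := hk 5 (by decide : 5 ∈ [2, 3, 4, 5, 6, 7, 8, 9, 10, 12, 14, 18]) (by omega) (by omega)
    have h4 := hk 18 (by decide : 18 ∈ [2, 3, 4, 5, 6, 7, 8, 9, 10, 12, 14, 18]) (by omega) (by omega)
    have h5 := hle (mul_dvd_of hf₁ h3 h4 (by norm_num))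
    omega
  case e8 q =>
    exfalso
    have hlo' : 5 * f ≤ f₁ * 120 := hlo
    have h3 := hk 7 (by decide : 7 ∈ [2, 3, 4, 5, 6, 7, 8, 9, 10, 12, 14, 15, 18, 20, 24, 30]) (by omega) (by omega)
    have h4 := hk 30 (by decide : 30 ∈ [2, 3, 4, 5, 6, 7, 8, 9, 10, 12, 14, 15, 18, 20, 24, 30]) (by omega) (by omega)
    have h5 := hle (mul_dvd_of hf₁ h3 h4 (by norm_num))
    omega
  case te6 q =>
    exfalso
    have hlo' : 5 * f ≤ f₁ * 36 := hlo
    have h3 := hk 10 (by decide : 10 ∈ [2, 3, 4, 6, 8, 10, 12, 18]) (by omega) (by omega)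
    have h4 := hk 12 (by decide : 12 ∈ [2, 3, 4, 6, 8, 10, 12, 18]) (by omega) (by omega)
    have h5 := hle (mul_dvd_of (s := f₁ * 2) (a := 5) (b := 6) (by omega) (by rw [mul_assoc]; exact h3)
      (by rw [mul_assoc]; exact h4) (by norm_num))
    omega
  case td4 q =>
    exfalso
    obtain rfl : q = p ^ f₁ := hfl
    have hlo' : 5 * f ≤ f₁ * 12 := hlo
    obtain ⟨t, ht⟩ := hk 12 (by decide : 12 ∈ [2, 3, 6, 12]) (by omega) (by omega)
    have h5 : t = 1 := by
      rcases Nat.lt_or_ge t 2 with h | h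
      · interval_cases t <;> omega
      · exfalso
        have : f₁ * 12 * 2 ≤ f₁ * 12 * t := Nat.mul_le_mul_left _ h
        omega
    subst h5
    obtain rfl : f = 2 * f₁ := by omega
    have ha : 2 ≤ p ^ f₁ := hp.two_le.trans (Nat.le_self_pow (by omega) _)
    have h6 := num_dvd hc hdvd
    rw [show p ^ (2 * f₁) = (p ^ f₁) ^ 2 by rw [← pow_mul, mul_comm], num_g2_pow] at h6
    have h9 : (p ^ f₁) ^ 12 * (((p ^ f₁) ^ 2 - 1) * ((p ^ f₁) ^ 6 - 1) * ((p ^ f₁) ^ 8 + (p ^ f₁) ^ 4 + 1)) ∣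
        1 * ((p ^ f₁) ^ 12 * (((p ^ f₁) ^ 4 - 1) * ((p ^ f₁) ^ 12 - 1))) := h6
    rw [one_mul] at h9
    exact elim_td4 ha h9
  case sz q =>
    exfalso
    have hlo' : 5 * f ≤ f₁ * 2 := hlo
    have h3 := hle (hk 4 (by decide : 4 ∈ [1, 4]) (by omega) (by omega))
    omega
  case ree q =>
    exfalso
    have hlo' : 5 * f ≤ f₁ * 3 := hlo
    have h3 := hle (hk 6 (by decide : 6 ∈ [1, 6]) (by omega) (by omega))
    omega
  case tf4 q =>
    exfalso
    obtain rfl : q = p ^ f₁ := hfl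
    have hlo' : 5 * f ≤ f₁ * 12 := hlo
    obtain ⟨t, ht⟩ := hk 12 (by decide : 12 ∈ [1, 4, 6, 12]) (by omega) (by omega)
    have h5 : t = 1 := by
      rcases Nat.lt_or_ge t 2 with h | h
      · interval_cases t <;> omega
      · exfalso
        have : f₁ * 12 * 2 ≤ f₁ * 12 * t := Nat.mul_le_mul_left _ h
        omega
    subst h5
    obtain ⟨m₀, hm₀, hqm⟩ : ∃ m, 1 ≤ m ∧ p ^ f₁ = 2 ^ (2 * m + 1) := hg
    have hp2 : p = 2 := by
      have h4 : p ∣ 2 ^ (2 * m₀ + 1) := by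
        rw [← hqm]
        exact dvd_pow_self p (by omega)
      exact (Nat.prime_dvd_prime_iff_eq hp Nat.prime_two).1 (hp.dvd_of_dvd_pow h4)
    subst hp2
    have hfm : f₁ = 2 * m₀ + 1 := Nat.pow_right_injective (le_refl 2) hqm
    have := h24 rfl
    omega
  all_goals exact absurd hch not_false

/-! ### the primes different from `p` -/

theorem P_sub_two {t q : ℕ} (ht : t.Prime) (hq : 2 ≤ q) : Art.P t (q ^ 2 - 1) ≤ 2 * (q + 1) := by
  have h0 : q ^ 2 - 1 = (q - 1) * (q + 1) := by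
    have := fac_two q 1
    rwa [mul_one, pow_one] at this
  have h1 : q - 1 ≠ 0 := by omega
  rw [h0, Art.P_mul h1 (by omega)]
  by_cases h2 : t ∣ q - 1
  · by_cases h3 : t ∣ q + 1
    · have h4 : t ∣ 2 := by
        have := Nat.dvd_sub h3 h2
        rwa [show q + 1 - (q - 1) = 2 by omega] at this
      obtain rfl := (Nat.prime_dvd_prime_iff_eq ht Nat.prime_two).1 h4
      -- one of the two is `2` modulo `4`
      have h5 : ∀ x : ℕ, x ≠ 0 → ¬ 4 ∣ x → Art.P 2 x ≤ 2 := by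
        intro x hx h
        by_contra h6
        apply h
        have h7 : 2 ≤ x.factorization 2 := by
          by_contra h8
          apply h6
          calc Art.P 2 x = 2 ^ x.factorization 2 := rfl
            _ ≤ 2 ^ 1 := Nat.pow_le_pow_right (by norm_num) (by omega)
        exact (Nat.prime_two.pow_dvd_iff_le_factorization (k := 2) hx).2 h7
      by_cases h6 : 4 ∣ q - 1
      · have h7 : ¬ 4 ∣ q + 1 := by omega
        calc Art.P 2 (q - 1) * Art.P 2 (q + 1) ≤ (q - 1) * 2 :=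
              Nat.mul_le_mul (Art.P_le h1) (h5 _ (by omega) h7)
          _ ≤ 2 * (q + 1) := by omega
      · exact Nat.mul_le_mul (h5 _ h1 h6) (Art.P_le (by omega))
    · rw [Art.P_eq_one h3, mul_one]
      exact (Art.P_le h1).trans (by omega)
  · rw [Art.P_eq_one h2, one_mul]
    exact (Art.P_le (by omega)).trans (by omega)

theorem P_num_g2 {t q : ℕ} (ht : t.Prime) (hq : 16 ≤ q) (htq : ¬ t ∣ q) : Art.P t (num (.g2 q)) ≤ q ^ 4 := by
  have hq2 : 2 ≤ q := by omega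
  have h1 : num (.g2 q) = q ^ 6 * ((q ^ 2 - 1) * (q ^ 6 - 1)) := rfl
  have p2 := pow_pos2 hq2 (k := 2) (by norm_num)
  have p6 := pow_pos2 hq2 (k := 6) (by norm_num)
  rw [h1, P_drop ht (by omega) htq (Nat.mul_pos p2 p6).ne', Art.P_mul p2.ne' p6.ne']
  have h3 : q ^ 6 - 1 = (q ^ 2 - 1) * (q ^ 4 + q ^ 2 + 1) := by
    obtain ⟨b, hb⟩ := Nat.exists_eq_add_of_le (one_le_pow' hq2 2)
    have h1 : q ^ 6 = (q ^ 2) ^ 3 := by ring
    have h2 : q ^ 4 = (q ^ 2) ^ 2 := by ring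
    rw [h1, h2, hb]
    have h3 : (1 + b) ^ 3 = 1 + b * ((1 + b) ^ 2 + (1 + b) + 1) := by ring
    rw [h3]
    simp
  rw [h3, Art.P_mul p2.ne' (by positivity)]
  have hq4 : q ^ 4 = q ^ 2 * q ^ 2 := by ring
  have hs : 256 ≤ q ^ 2 := by nlinarith
  by_cases h4 : t ∣ q ^ 2 - 1
  · -- `P_t(q⁴ + q² + 1) ≤ 3`
    have h5 : Art.P t (q ^ 4 + q ^ 2 + 1) ≤ 3 := by
      obtain ⟨b, hb⟩ := h4
      have h6 : q ^ 2 = t * b + 1 := by omega
      have h7 : q ^ 4 + q ^ 2 + 1 = t * (t * b * b + 3 * b) + 3 := by rw [hq4, h6]; ring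
      by_cases h8 : t = 3
      · subst h8
        by_contra h9
        have h10 : 2 ≤ (q ^ 4 + q ^ 2 + 1).factorization 3 := by
          by_contra h8
          apply h9
          calc Art.P 3 (q ^ 4 + q ^ 2 + 1) = 3 ^ (q ^ 4 + q ^ 2 + 1).factorization 3 := rfl
            _ ≤ 3 ^ 1 := Nat.pow_le_pow_right (by norm_num) (by omega)
        have h11 := (ht.pow_dvd_iff_le_factorization (k := 2) (by positivity)).2 h10
        rw [h7] at h11
        have h12 : 3 * (3 * b * b + 3 * b) = 3 ^ 2 * (b * b + b) := by ring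
        rw [h12] at h11
        have := (Nat.dvd_add_right (Dvd.intro _ rfl)).1 h11
        have := Nat.le_of_dvd (by norm_num) this
        omega
      · rw [Art.P_eq_one]
        · norm_num
        · intro h9
          rw [h7] at h9
          have h10 := (Nat.dvd_add_right (Dvd.intro _ rfl)).1 h9
          exact h8 ((Nat.prime_dvd_prime_iff_eq ht Nat.prime_three).1 h10)
    have h6 := P_sub_two ht hq2
    calc Art.P t (q ^ 2 - 1) * (Art.P t (q ^ 2 - 1) * Art.P t (q ^ 4 + q ^ 2 + 1)) ≤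
          (2 * (q + 1)) * ((2 * (q + 1)) * 3) := Nat.mul_le_mul h6 (Nat.mul_le_mul h6 h5)
      _ ≤ q ^ 4 := by rw [hq4]; nlinarith
  · rw [Art.P_eq_one h4, one_mul, one_mul]
    -- `t` divides at most one of `q² + q + 1`, `q² - q + 1`
    obtain ⟨b, rfl⟩ : ∃ b, q = b + 1 := ⟨q - 1, by omega⟩
    have h5 : (b + 1) ^ 4 + (b + 1) ^ 2 + 1 = ((b + 1) ^ 2 + (b + 1) + 1) * (b ^ 2 + b + 1) := by ring
    have h6 : (b + 1) ^ 2 + (b + 1) + 1 = (b ^ 2 + b + 1) + 2 * (b + 1) := by ring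
    have hle : b ^ 2 + b + 1 ≤ (b + 1) ^ 4 := by nlinarith [Nat.zero_le b, sq_nonneg b]
    have hle2 : (b + 1) ^ 2 + (b + 1) + 1 ≤ (b + 1) ^ 4 := by rw [hq4]; nlinarith
    rw [h5, Art.P_mul (by positivity) (by positivity)]
    by_cases h7 : t ∣ b ^ 2 + b + 1
    · rw [Art.P_eq_one (a := (b + 1) ^ 2 + (b + 1) + 1), one_mul]
      · exact (Art.P_le (by positivity)).trans hle
      · intro h8
        rw [h6] at h8
        have h9 := (Nat.dvd_add_right h7).1 h8
        rcases ht.dvd_mul.1 h9 with h10 | h10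
        · obtain rfl := (Nat.prime_dvd_prime_iff_eq ht Nat.prime_two).1 h10
          have h11 : 2 ∣ b * (b + 1) := (Nat.even_mul_succ_self b).two_dvd
          have h12 : b ^ 2 + b + 1 = b * (b + 1) + 1 := by ring
          rw [h12] at h7
          have := (Nat.dvd_add_right h11).1 h7
          omega
        · exact htq h10
    · rw [Art.P_eq_one h7, mul_one]
      exact (Art.P_le (by positivity)).trans hle2

theorem num_g2_le (q : ℕ) : num (.g2 q) ≤ q ^ 14 := by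
  have h1 : num (.g2 q) = q ^ 6 * ((q ^ 2 - 1) * (q ^ 6 - 1)) := rfl
  rw [h1]
  calc q ^ 6 * ((q ^ 2 - 1) * (q ^ 6 - 1)) ≤ q ^ 6 * (q ^ 2 * q ^ 6) := by
        gcongr <;> exact Nat.sub_le _ _
    _ = q ^ 14 := by ring

theorem spor_20 : ∀ x ∈ spor, 2 ^ 20 ∣ x.2 → 2 ^ 60 ≤ x.2 := by decide +kernel
theorem spor_40 : ∀ x ∈ spor, 2 ^ 40 ∣ x.2 → 47 ∣ x.2 := by decide +kernel
theorem spor3_20 : ∀ x ∈ spor, 3 ^ 20 ∣ x.2 → 3 ^ 60 ≤ x.2 := by decide +kernel

section Inst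

variable (hS0 : ∀ (X : Type u) [Group X] [Finite X] [IsSimpleGroup X], IsKnownSimple' X)

include hS0

/-- **`BigP` for `G₂(p ^ f)`**: no classes of primes are needed. -/
theorem bigP_g2 {G : Type u} [Group G] [Finite G] (hp : p.Prime) (hf : 4 ≤ f) (h24 : p = 2 → 4 ∣ f)
    (hc : ∀ k, p ^ k ∣ c → k ≤ f) (C : ℕ → Prop)
    (hG : den (.g2 (p ^ f)) * Nat.card G = num (.g2 (p ^ f))) : BigP G p (6 * f) c C := by
  have hq16 : 16 ≤ p ^ f := by
    calc 16 = 2 ^ 4 := by norm_num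
      _ ≤ p ^ 4 := Nat.pow_le_pow_left hp.two_le 4
      _ ≤ p ^ f := Nat.pow_le_pow_right hp.pos hf
  have hq : 2 ≤ p ^ f := by omega
  have hlt := pow_f (lt_of_le_pow hq (num_g2_le (p ^ f)))
  have hn0 := num_ne hG one_pos
  refine bigP_frame hS0 (f := f) (N := 6) (δ := 1) (B := 4) (D := f * 15) hp hG
    hn0 (by simpa using hc) (fun t ht h2 => P_num_g2 ht hq16 (not_dvd_pw hp ht h2))
    hlt (by omega) (by omega) (by omega) (fun x hx h1 h2 => ?_)
    fun g c hg hch hc hd' hC hpp => bigp_g2 hp hf h24 hg hch hc hd' hpp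
  have h3 := (Nat.le_of_dvd (Nat.pos_of_ne_zero hn0) h2).trans_lt hlt
  by_cases h5 : 5 ≤ p
  · exact spor_ten hp h5 x hx ((Nat.pow_dvd_pow p (by omega)).trans h1)
  · have h6 := hp.two_le
    have h4 : p ≠ 4 := by rintro rfl; revert hp; norm_num
    obtain rfl | rfl : p = 2 ∨ p = 3 := by omega
    · have h7 := h24 rfl
      rcases Nat.lt_or_ge f 12 with h8 | h8
      · obtain rfl | rfl : f = 4 ∨ f = 8 := by omega
        · have := spor_20 x hx h1
          omega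
        · have h9 := (spor_40 x hx h1).trans h2
          have h10 : ¬ 47 ∣ num (.g2 (2 ^ 8)) := by
            show ¬ 47 ∣ (2 ^ 8) ^ 6 * (((2 ^ 8) ^ 2 - 1) * ((2 ^ 8) ^ 6 - 1))
            norm_num
          exact h10 h9
      · exact spor_50 x hx ((Nat.pow_dvd_pow 2 (by omega)).trans h1)
    · rcases Nat.lt_or_ge f 5 with h8 | h8
      · obtain rfl : f = 4 := by omega
        have := spor3_20 x hx h1
        omega
      · exact spor_21 x hx ((Nat.pow_dvd_pow 3 (by omega)).trans h1)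

theorem bigP_G2 {F : Type u} [Field F] [Fintype F] (hp : p.Prime) (hf : 4 ≤ f) (h24 : p = 2 → 4 ∣ f)
    (hF : Fintype.card F = p ^ f) (hc : ∀ k, p ^ k ∣ c → k ≤ f) (C : ℕ → Prop) :
    BigP ↥(Lie.chevG2.group F) p (6 * f) c C := by
  refine bigP_g2 hS0 hp hf h24 hc C ?_
  change 1 * _ = _ ^ 6 * _
  rw [Cfsg.Agent.S1059.result hF]; ring

end Inst

end Cfsg.Agent.H363.DQ
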